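import Groth.Agent.Pi1.H391.Stmts2
import Mathlib.RingTheory.Unramified.Finite
import Mathlib.RingTheory.Localization.AtPrime.Basic
import Mathlib.RingTheory.Etale.Basic

/-!
# Local rings of `O' ⊗[O] R` over the generic point of `O'`, for `A → O` ind-etale

`locBase : Stmts2.LocBase`.
-/

set_option autoImplicit false

universe u

open TensorProduct IsLocalRing

namespace Groth.Agent.Pi1.H133.LocBase

/-- For `A → O` ind-etale and `o : O` there is `c` with `c (o ⊗ 1 - 1 ⊗ o) = 0` and `c ↦ 1` under any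
map of `R ⊗[A] Ω` whose two components agree on `O`. -/
theorem exists_idem (A O Ω R : Type u) [CommRing A] [CommRing O] [Algebra A O]
    (hL : Groth.Agent.Hensel.Lazard.Laz A O) [CommRing Ω] [Algebra A Ω] [Algebra O Ω] [IsScalarTower A O Ω]
    [CommRing R] [Algebra O R] [Algebra A R] [IsScalarTower A O R] (o : O) :
    ∃ c : R ⊗[A] Ω, c * ((algebraMap O R o) ⊗ₜ[A] (1 : Ω) - (1 : R) ⊗ₜ[A] (algebraMap O Ω o)) = 0 ∧
      ∀ (B : Type u) [CommRing B] (θ : R ⊗[A] Ω →+* B),
        (∀ o : O, θ ((algebraMap O R o) ⊗ₜ[A] 1) = θ (1 ⊗ₜ[A] (algebraMap O Ω o))) → θ c = 1 := by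
  obtain ⟨E, _, _, _, χ, e, he⟩ := hL.exists_family (fun _ : Unit => o)
  let c₀ : E ⊗[A] E := Algebra.FormallyUnramified.elem A E
  let α : E →ₐ[A] R := (IsScalarTower.toAlgHom A O R).comp χ
  let β : E →ₐ[A] Ω := (IsScalarTower.toAlgHom A O Ω).comp χ
  let m : E ⊗[A] E →ₐ[A] R ⊗[A] Ω := Algebra.TensorProduct.map α β
  refine ⟨m c₀, ?_, ?_⟩
  · have h1 := Algebra.FormallyUnramified.one_tmul_sub_tmul_one_mul_elem (R := A) (S := E) (e ())
    have h2 := congrArg m h1
    rw [map_mul, map_sub, map_zero] at h2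
    have h3 : m (1 ⊗ₜ e ()) = (1 : R) ⊗ₜ[A] (algebraMap O Ω o) := by
      change (α 1) ⊗ₜ[A] (β (e ())) = _
      rw [map_one]
      change (1 : R) ⊗ₜ[A] (algebraMap O Ω (χ (e ()))) = _
      rw [he]
    have h4 : m (e () ⊗ₜ 1) = (algebraMap O R o) ⊗ₜ[A] (1 : Ω) := by
      change (α (e ())) ⊗ₜ[A] (β 1) = _
      rw [map_one]
      change (algebraMap O R (χ (e ()))) ⊗ₜ[A] (1 : Ω) = _
      rw [he]
    rw [h3, h4] at h2
    rw [mul_comm, ← neg_sub, neg_mul, h2, neg_zero]
  · intro B _ θ hθ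
    have key : ∀ x : E ⊗[A] E, θ (m x) =
        θ ((algebraMap O R (χ (Algebra.TensorProduct.lmul' A x))) ⊗ₜ[A] 1) := by
      intro x
      induction x using TensorProduct.induction_on with
      | zero => simp
      | tmul x y =>
        change θ ((algebraMap O R (χ x)) ⊗ₜ[A] (algebraMap O Ω (χ y))) = _
        have h5 : (algebraMap O R (χ x)) ⊗ₜ[A] (algebraMap O Ω (χ y)) =
            ((algebraMap O R (χ x)) ⊗ₜ[A] (1 : Ω)) * ((1 : R) ⊗ₜ[A] (algebraMap O Ω (χ y))) := by
          rw [Algebra.TensorProduct.tmul_mul_tmul, mul_one, one_mul]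
        rw [h5, map_mul, ← hθ, ← map_mul, Algebra.TensorProduct.tmul_mul_tmul, mul_one,
          Algebra.TensorProduct.lmul'_apply_tmul, map_mul, map_mul]
      | add x y hx hy =>
        rw [map_add, map_add, hx, hy, map_add, map_add, map_add, TensorProduct.add_tmul, map_add]
    rw [key]
    have h6 : Algebra.TensorProduct.lmul' A c₀ = (1 : E) :=
      Algebra.FormallyUnramified.lmul_elem (R := A) (S := E)
    rw [h6, map_one, map_one, ← Algebra.TensorProduct.one_def, map_one]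

theorem locBase : Groth.Agent.Pi1.H391.Stmts2.LocBase.{u} := by
  intro A O O' Ω R _ _ _ hL _ _ _ _ _ _ _ _ _ _ _ _ _ _ P _ hP B _ _ _
  have hBloc : IsLocalRing B := IsLocalization.AtPrime.isLocalRing B P
  -- the maps to `B`
  let κ : O' ⊗[O] R →+* B := algebraMap (O' ⊗[O] R) B
  let ι' : O' →+* B := κ.comp Algebra.TensorProduct.includeLeftRingHom
  have hι'u : ∀ y : nonZeroDivisors O', IsUnit (ι' y) := by
    intro y
    apply IsLocalization.map_units B (⟨(y : O') ⊗ₜ[O] (1 : R), ?_⟩ : P.primeCompl)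
    intro hmem
    exact nonZeroDivisors.coe_ne_zero y (hP _ hmem)
  let ω : Ω →+* B := IsLocalization.lift (M := nonZeroDivisors O') hι'u
  have hω : ∀ a : O', ω (algebraMap O' Ω a) = κ (a ⊗ₜ 1) := fun a => IsLocalization.lift_eq hι'u a
  let ρ : R →+* B := κ.comp (Algebra.TensorProduct.includeRight : R →ₐ[O] O' ⊗[O] R).toRingHom
  have hρ : ∀ r : R, ρ r = κ (1 ⊗ₜ r) := fun r => rfl
  have hO : ∀ o : O, ω (algebraMap O Ω o) = ρ (algebraMap O R o) := by
    intro o
    have h : (algebraMap O O' o) ⊗ₜ[O] (1 : R) = (1 : O') ⊗ₜ[O] (algebraMap O R o) := by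
      rw [Algebra.algebraMap_eq_smul_one (A := O'), Algebra.algebraMap_eq_smul_one (A := R),
        TensorProduct.smul_tmul]
    rw [IsScalarTower.algebraMap_apply O O' Ω, hω, hρ, h]
  let _ : Algebra A B := (ρ.comp (algebraMap A R)).toAlgebra
  let ρA : R →ₐ[A] B := { ρ with commutes' := fun a => rfl }
  have hωA : ∀ a : A, ω (algebraMap A Ω a) = ρ (algebraMap A R a) := by
    intro a
    rw [IsScalarTower.algebraMap_apply A O Ω, hO, ← IsScalarTower.algebraMap_apply]
  let ωA : Ω →ₐ[A] B := { ω with commutes' := hωA }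
  let θ : R ⊗[A] Ω →ₐ[A] B := Algebra.TensorProduct.productMap ρA ωA
  have hθ : ∀ (r : R) (w : Ω), θ (r ⊗ₜ w) = ρ r * ω w := fun r w =>
    Algebra.TensorProduct.productMap_apply_tmul _ _ r w
  have hθl : ∀ (r : R), θ (r ⊗ₜ 1) = ρ r := fun r => by rw [hθ, map_one, mul_one]
  have hθr : ∀ (w : Ω), θ (1 ⊗ₜ w) = ω w := fun w => by rw [hθ, map_one, one_mul]
  let y : Ideal (R ⊗[A] Ω) := (maximalIdeal B).comap θ.toRingHom
  have hy : y.IsPrime := Ideal.IsPrime.comap _
  let B' := Localization.AtPrime y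
  -- `B' → B`
  have hu : ∀ s : y.primeCompl, IsUnit (θ.toRingHom s) := by
    intro s
    by_contra hcon
    exact s.2 ((mem_maximalIdeal _).mpr hcon)
  let φ : B' →+* B := IsLocalization.lift (M := y.primeCompl) hu
  have hφ : ∀ x, φ (algebraMap _ B' x) = θ x := fun x => IsLocalization.lift_eq hu x
  have hφloc : ∀ x, IsUnit (φ x) → IsUnit x := by
    intro x hx
    obtain ⟨a, s, rfl⟩ := IsLocalization.exists_mk'_eq y.primeCompl x
    rw [IsLocalization.lift_mk'] at hx
    have h1 : IsUnit (θ.toRingHom a) := by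
      rw [mul_comm] at hx
      exact isUnit_of_mul_isUnit_right hx
    rw [IsLocalization.AtPrime.isUnit_mk'_iff]
    intro hmem
    exact (mem_maximalIdeal _).mp hmem h1
  -- the components of `T → B'` agree on `O`
  have hO' : ∀ o : O, algebraMap (R ⊗[A] Ω) B' ((algebraMap O R o) ⊗ₜ 1) =
      algebraMap (R ⊗[A] Ω) B' (1 ⊗ₜ (algebraMap O Ω o)) := by
    intro o
    obtain ⟨c, hc, hc1⟩ := exists_idem A O Ω R hL o
    have h1 : θ.toRingHom c = 1 := hc1 B θ.toRingHom (fun o => by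
      change θ _ = θ _
      rw [hθl, hθr, hO])
    have h2 : c ∉ y := by
      intro hmem
      have : θ.toRingHom c ∈ maximalIdeal B := hmem
      rw [h1] at this
      exact (mem_maximalIdeal _).mp this isUnit_one
    have h3 : IsUnit (algebraMap (R ⊗[A] Ω) B' c) := IsLocalization.map_units B' (⟨c, h2⟩ : y.primeCompl)
    rw [← sub_eq_zero, ← map_sub, ← h3.mul_right_eq_zero, ← map_mul, hc, map_zero]
  let _ : Algebra O B' := (((algebraMap (R ⊗[A] Ω) B').comp
    Algebra.TensorProduct.includeLeftRingHom).comp (algebraMap O R)).toAlgebra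
  let g₁ : R →ₐ[O] B' := { (algebraMap (R ⊗[A] Ω) B').comp
    Algebra.TensorProduct.includeLeftRingHom with commutes' := fun o => rfl }
  have hg₂ : ∀ o : O, algebraMap (R ⊗[A] Ω) B' (1 ⊗ₜ (algebraMap O' Ω (algebraMap O O' o))) =
      algebraMap (R ⊗[A] Ω) B' ((algebraMap O R o) ⊗ₜ 1) := by
    intro o
    rw [← IsScalarTower.algebraMap_apply, hO']
  let g₂ : O' →ₐ[O] B' := { ((algebraMap (R ⊗[A] Ω) B').comp
    (Algebra.TensorProduct.includeRight : Ω →ₐ[A] R ⊗[A] Ω).toRingHom).comp (algebraMap O' Ω) with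
      commutes' := hg₂ }
  let g : O' ⊗[O] R →ₐ[O] B' := Algebra.TensorProduct.productMap g₂ g₁
  have hg : ∀ (a : O') (r : R), g (a ⊗ₜ r) = algebraMap (R ⊗[A] Ω) B' (r ⊗ₜ (algebraMap O' Ω a)) := by
    intro a r
    refine (Algebra.TensorProduct.productMap_apply_tmul _ _ a r).trans ?_
    change algebraMap (R ⊗[A] Ω) B' (1 ⊗ₜ (algebraMap O' Ω a)) *
      algebraMap (R ⊗[A] Ω) B' (r ⊗ₜ 1) = _
    rw [← map_mul, Algebra.TensorProduct.tmul_mul_tmul, one_mul, mul_one]
  have hφg : ∀ x, φ (g x) = κ x := by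
    intro x
    induction x using TensorProduct.induction_on with
    | zero => simp
    | tmul a r =>
      rw [hg, hφ, hθ, hω, hρ, mul_comm, ← map_mul, Algebra.TensorProduct.tmul_mul_tmul, one_mul, mul_one]
    | add x x' hx hx' => rw [map_add, map_add, hx, hx', map_add]
  have hgu : ∀ s : P.primeCompl, IsUnit (g.toRingHom s) := by
    intro s
    apply hφloc
    have : φ (g s) = κ s := hφg s
    change IsUnit (φ (g s))
    rw [this]
    exact IsLocalization.map_units B s
  let ψ : B →+* B' := IsLocalization.lift (M := P.primeCompl) hgu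
  have hψ : ∀ x, ψ (κ x) = g x := fun x => IsLocalization.lift_eq hgu x
  have h1 : φ.comp ψ = RingHom.id B := by
    apply IsLocalization.ringHom_ext P.primeCompl
    refine RingHom.ext fun x => ?_
    change φ (ψ (κ x)) = κ x
    rw [hψ, hφg]
  have hψω : ∀ w : Ω, ψ (ω w) = algebraMap (R ⊗[A] Ω) B' (1 ⊗ₜ w) := by
    have : ψ.comp ω = (algebraMap (R ⊗[A] Ω) B').comp
        (Algebra.TensorProduct.includeRight : Ω →ₐ[A] R ⊗[A] Ω).toRingHom := by
      apply IsLocalization.ringHom_ext (nonZeroDivisors O')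
      ext a
      change ψ (ω (algebraMap O' Ω a)) = algebraMap (R ⊗[A] Ω) B' (1 ⊗ₜ algebraMap O' Ω a)
      rw [hω, hψ, hg]
    exact fun w => RingHom.congr_fun this w
  have hψρ : ∀ r : R, ψ (ρ r) = algebraMap (R ⊗[A] Ω) B' (r ⊗ₜ 1) := by
    intro r
    rw [hρ, hψ, hg, map_one]
  have hψθ : ∀ x, ψ (θ x) = algebraMap (R ⊗[A] Ω) B' x := by
    intro x
    induction x using TensorProduct.induction_on with
    | zero => simp
    | tmul r w =>
      rw [hθ, map_mul, hψω, hψρ, ← map_mul, Algebra.TensorProduct.tmul_mul_tmul, one_mul, mul_one]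
    | add x x' hx hx' => rw [map_add, map_add, hx, hx', map_add]
  have h2 : ψ.comp φ = RingHom.id B' := by
    apply IsLocalization.ringHom_ext y.primeCompl
    refine RingHom.ext fun x => ?_
    change ψ (φ (algebraMap _ B' x)) = algebraMap _ B' x
    rw [hφ, hψθ]
  refine ⟨θ.toRingHom.toAlgebra, ?_, ?_, y, hy, ?_⟩
  · intro r
    exact hθl r
  · intro a
    exact (hθr _).trans (hω a)
  · let _ : Algebra (R ⊗[A] Ω) B := θ.toRingHom.toAlgebra
    let e : B' ≃+* B := RingEquiv.ofRingHom φ ψ h1 h2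
    exact IsLocalization.isLocalization_of_algEquiv y.primeCompl
      ({ e with commutes' := fun x => hφ x } : B' ≃ₐ[R ⊗[A] Ω] B)

end Groth.Agent.Pi1.H133.LocBase
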